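import Cfsg.Agent.Lib.Helper35.JR.Defs

/-!
# JR (S3206): package [FUS] — fusion of involutions in a simple group with Sylow 2-subgroups `E₈`
-/

set_option autoImplicit false

namespace Cfsg.Agent.Lib.Helper15.JR

open Cfsg.Agent.Lib.Helper35.JR
open scoped IsMulCommutative

universe u

/-- exponent 2 implies commutative -/
theorem comm_of_sq_fus {G : Type u} [Group G] (S : Subgroup G) (h : ∀ x ∈ S, x ^ 2 = 1) :
    ∀ x ∈ S, ∀ y ∈ S, x * y = y * x := by
  intro x hx y hy
  have e : ∀ z ∈ S, z⁻¹ = z := fun z hz =>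
    inv_eq_of_mul_eq_one_right (by rw [← sq]; exact h z hz)
  have h1 := e (x * y) (S.mul_mem hx hy)
  rw [mul_inv_rev, e x hx, e y hy] at h1
  exact h1.symm

/-- No nonidentity element of an elementary abelian Sylow 2-subgroup `S` of a nonabelian simple
group is centralized by `N_G(S)` (Burnside transfer). -/
theorem no_fixed_fus {G : Type u} [Group G] [Finite G] [IsSimpleGroup G]
    (hna : ¬ IsMulCommutative G) (S : Sylow 2 G)
    (hsq : ∀ x ∈ (S : Subgroup G), x ^ 2 = 1) (s : G) (hs : s ∈ (S : Subgroup G)) (hs1 : s ≠ 1)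
    (hfix : ∀ n ∈ Subgroup.normalizer ((S : Subgroup G) : Set G), n * s * n⁻¹ = s) : False := by
  have hcomm := comm_of_sq_fus (S : Subgroup G) hsq
  have : IsMulCommutative ↥(S : Subgroup G) :=
    ⟨⟨fun a b => Subtype.ext (hcomm a a.2 b b.2)⟩⟩
  let τ : G →* ↥(S : Subgroup G) := MonoidHom.transfer (MonoidHom.id ↥(S : Subgroup G))
  have hker : τ.ker = ⊤ := by
    rcases (MonoidHom.normal_ker τ).eq_bot_or_eq_top with h | h
    · exfalso
      have hinj : Function.Injective τ := (MonoidHom.ker_eq_bot_iff τ).mp h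
      exact hna ⟨⟨fun a b => hinj (by rw [map_mul, map_mul, mul_comm])⟩⟩
    · exact h
  have key : ∀ (k : ℕ) (g₀ : G), g₀⁻¹ * s ^ k * g₀ ∈ (S : Subgroup G) →
      g₀⁻¹ * s ^ k * g₀ = s ^ k := by
    intro k g₀ hk
    obtain ⟨n, hn, hn2⟩ := S.conj_eq_normalizer_conj_of_mem (s ^ k) g₀ (pow_mem hs k) hk
    rw [hn2]
    have h1 := hfix n⁻¹ (inv_mem hn)
    have h2 : n⁻¹ * s ^ k * n⁻¹⁻¹ = s ^ k := by rw [← conj_pow, h1]
    rwa [inv_inv] at h2
  have h3 : τ s = (MonoidHom.id ↥(S : Subgroup G))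
      ⟨s ^ (S : Subgroup G).index, MonoidHom.transfer_eq_pow_aux s key⟩ :=
    MonoidHom.transfer_eq_pow (MonoidHom.id ↥(S : Subgroup G)) s key
  have h4 : τ s = 1 := by
    have h : s ∈ τ.ker := by rw [hker]; trivial
    exact h
  have hodd : ¬ 2 ∣ (S : Subgroup G).index := S.not_dvd_index
  have h5 : s ^ (S : Subgroup G).index = s := by
    have ho : Odd (S : Subgroup G).index := by rw [Nat.odd_iff]; omega
    obtain ⟨m, hm⟩ := ho
    rw [hm, pow_succ, pow_mul, hsq s hs, one_pow, one_mul]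
  have h6 : ((τ s : ↥(S : Subgroup G)) : G) = s ^ (S : Subgroup G).index :=
    congrArg Subtype.val h3
  rw [h4, h5] at h6
  exact hs1 h6.symm

theorem pkgFus : PkgFus.{u} := by
  intro G _ _ _ hna hS8 S s hs hs1 s' hs' hs'1
  classical
  obtain ⟨hcard, hsq⟩ := hS8 S
  have hcomm := comm_of_sq_fus (S : Subgroup G) hsq
  set N := Subgroup.normalizer ((S : Subgroup G) : Set G) with hN
  letI : MulAction ↥N G :=
    MulAction.compHom G ((MulAut.conj : G →* MulAut G).comp N.subtype)
  have hsmul : ∀ (n : ↥N) (x : G), n • x = (n : G) * x * (n : G)⁻¹ := fun n x => rfl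
  set X : Set G := ((S : Subgroup G) : Set G) \ {1} with hX
  have hfin : ∀ (A : Set G), A.Finite := fun A => Set.toFinite A
  have hXcard : X.ncard = 7 := by
    rw [hX, Set.ncard_sdiff_singleton_of_mem (Subgroup.one_mem _)]
    have h8 : ((S : Subgroup G) : Set G).ncard = 8 := by
      rw [← _root_.Nat.card_coe_set_eq]; exact hcard
    rw [h8]
  have h16 : ¬ 16 ∣ Nat.card G := by
    intro h
    have h1 := (S : Subgroup G).card_mul_index
    rw [hcard] at h1
    exact S.not_dvd_index (by omega)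
  have horb : ∀ x ∈ (S : Subgroup G), x ≠ 1 →
      MulAction.orbit ↥N x ⊆ X ∧ Odd (MulAction.orbit ↥N x).ncard ∧
        3 ≤ (MulAction.orbit ↥N x).ncard := by
    intro x hx hx1
    have hsub : MulAction.orbit ↥N x ⊆ X := by
      rintro _ ⟨n, rfl⟩
      show n • x ∈ X
      rw [hsmul]
      refine ⟨?_, ?_⟩
      · exact (Subgroup.mem_normalizer_iff.mp n.2 x).mp hx
      · intro h
        rw [Set.mem_singleton_iff] at h
        apply hx1
        have h2 : x = (n : G)⁻¹ * ((n : G) * x * (n : G)⁻¹) * (n : G) := by group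
        rw [h2, h]; group
    have hodd : Odd (MulAction.orbit ↥N x).ncard := by
      rw [← MulAction.index_stabilizer]
      by_contra hne
      have h2 : 2 ∣ (MulAction.stabilizer ↥N x).index := by
        rw [Nat.not_odd_iff_even] at hne
        exact hne.two_dvd
      have hle : (S : Subgroup G).subgroupOf N ≤ MulAction.stabilizer ↥N x := by
        intro n hn
        rw [MulAction.mem_stabilizer_iff, hsmul]
        have hn' : (n : G) ∈ (S : Subgroup G) := Subgroup.mem_subgroupOf.mp hn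
        rw [hcomm _ hn' x hx, mul_inv_cancel_right]
      have hc8 : Nat.card ((S : Subgroup G).subgroupOf N) = 8 := by
        rw [← hcard]
        exact Nat.card_congr (Subgroup.subgroupOfEquivOfLe Subgroup.le_normalizer).toEquiv
      have h8 : 8 ∣ Nat.card (MulAction.stabilizer ↥N x) := by
        rw [← hc8]; exact Subgroup.card_dvd_of_le hle
      have hmul := (MulAction.stabilizer ↥N x).card_mul_index
      have hNdvd : Nat.card ↥N ∣ Nat.card G := Subgroup.card_subgroup_dvd_card N
      apply h16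
      refine dvd_trans ?_ hNdvd
      rw [← hmul]
      exact mul_dvd_mul h8 h2
    refine ⟨hsub, hodd, ?_⟩
    by_contra hlt
    have h1 : (MulAction.orbit ↥N x).ncard = 1 := by
      obtain ⟨m, hm⟩ := hodd; omega
    rw [Set.ncard_eq_one] at h1
    obtain ⟨a, ha⟩ := h1
    have hxa : x = a := by
      have h2 := MulAction.mem_orbit_self (M := ↥N) x
      rw [ha] at h2; exact h2
    apply no_fixed_fus hna S hsq x hx hx1
    intro n hn
    have h2 : (⟨n, hn⟩ : ↥N) • x ∈ MulAction.orbit ↥N x := MulAction.mem_orbit _ _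
    rw [ha, Set.mem_singleton_iff, ← hxa] at h2
    exact h2
  by_contra hno
  have hnot : s' ∉ MulAction.orbit ↥N s := by
    rintro ⟨n, hn⟩
    exact hno ⟨n.1, n.2, hn⟩
  obtain ⟨hO, hOodd, hO3⟩ := horb s hs hs1
  obtain ⟨hO', hO'odd, hO'3⟩ := horb s' hs' hs'1
  have hdisj : Disjoint (MulAction.orbit ↥N s) (MulAction.orbit ↥N s') := by
    rcases MulAction.orbit.eq_or_disjoint (G := ↥N) s s' with h | h
    · exact absurd (h ▸ MulAction.mem_orbit_self s') hnot
    · exact h
  have hU := Set.ncard_union_eq hdisj (hfin _) (hfin _)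
  have hUle : (MulAction.orbit ↥N s ∪ MulAction.orbit ↥N s').ncard ≤ X.ncard :=
    Set.ncard_le_ncard (Set.union_subset hO hO') (hfin _)
  have hUlt : (MulAction.orbit ↥N s ∪ MulAction.orbit ↥N s').ncard < X.ncard := by
    obtain ⟨a, ha⟩ := hOodd
    obtain ⟨b, hb⟩ := hO'odd
    omega
  obtain ⟨r, hrX, hrU⟩ := Set.exists_mem_notMem_of_ncard_lt_ncard hUlt (hfin _)
  obtain ⟨hO'', hO''odd, hO''3⟩ := horb r hrX.1 (fun h => hrX.2 (by rw [h]; rfl))
  have hdisj2 : Disjoint (MulAction.orbit ↥N s ∪ MulAction.orbit ↥N s')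
      (MulAction.orbit ↥N r) := by
    rw [Set.disjoint_union_left]
    constructor
    · rcases MulAction.orbit.eq_or_disjoint (G := ↥N) s r with h | h
      · exact absurd (Or.inl (h ▸ MulAction.mem_orbit_self r)) hrU
      · exact h
    · rcases MulAction.orbit.eq_or_disjoint (G := ↥N) s' r with h | h
      · exact absurd (Or.inr (h ▸ MulAction.mem_orbit_self r)) hrU
      · exact h
  have hU2 := Set.ncard_union_eq hdisj2 (hfin _) (hfin _)
  have hU2le : ((MulAction.orbit ↥N s ∪ MulAction.orbit ↥N s') ∪ MulAction.orbit ↥N r).ncard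
      ≤ X.ncard :=
    Set.ncard_le_ncard (Set.union_subset (Set.union_subset hO hO') hO'') (hfin _)
  omega

end Cfsg.Agent.Lib.Helper15.JR
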